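import Mathlib
import Cfsg.Agent.Lib.Helper78.S4415.Defs

/-!
# S4415 package [FRAME]: the weight frame of the four-group `Q`
-/

set_option autoImplicit false
set_option linter.unusedSimpArgs false

namespace Cfsg.Agent.Lib.Helper67.S4415

open Cfsg.Agent.Lib.Helper78.S4415

universe u v

/-- a group of exponent two is commutative (elementwise form on a subgroup) -/
theorem comm_of_sq {G : Type u} [Group G] (Q : Subgroup G) (hQ2 : ∀ q ∈ Q, q * q = 1)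
    (x y : G) (hx : x ∈ Q) (hy : y ∈ Q) : x * y = y * x := by
  have h1 := hQ2 x hx
  have h2 := hQ2 y hy
  have h3 := hQ2 (x * y) (Q.mul_mem hx hy)
  symm
  calc y * x = (x * x) * (y * x) * (y * y) := by rw [h1, h2, one_mul, mul_one]
    _ = x * ((x * y) * (x * y)) * y := by group
    _ = x * y := by rw [h3, mul_one]

/-- a subgroup of order four containing four distinct elements consists of them -/
theorem four_elts {G : Type u} [Group G] [Finite G] (Q : Subgroup G) (hQ4 : Nat.card Q = 4)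
    (a b c d : G) (ha : a ∈ Q) (hb : b ∈ Q) (hc : c ∈ Q) (hd : d ∈ Q)
    (hab : a ≠ b) (hac : a ≠ c) (had : a ≠ d) (hbc : b ≠ c) (hbd : b ≠ d) (hcd : c ≠ d)
    (q : G) (hq : q ∈ Q) : q = a ∨ q = b ∨ q = c ∨ q = d := by
  classical
  by_contra hcon
  have hqa : q ≠ a := fun h => hcon (Or.inl h)
  have hqb : q ≠ b := fun h => hcon (Or.inr (Or.inl h))
  have hqc : q ≠ c := fun h => hcon (Or.inr (Or.inr (Or.inl h)))
  have hqd : q ≠ d := fun h => hcon (Or.inr (Or.inr (Or.inr h)))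
  have hcard : ({q, a, b, c, d} : Finset G).card = 5 := by
    rw [Finset.card_insert_of_notMem, Finset.card_insert_of_notMem, Finset.card_insert_of_notMem,
      Finset.card_insert_of_notMem, Finset.card_singleton]
    · simpa using hcd
    · simp [hbc, hbd]
    · simp [hab, hac, had]
    · simp [hqa, hqb, hqc, hqd]
  have hsub : (({q, a, b, c, d} : Finset G) : Set G) ⊆ (Q : Set G) := by
    intro x hx
    simp only [Finset.coe_insert, Finset.coe_singleton, Set.mem_insert_iff,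
      Set.mem_singleton_iff] at hx
    rcases hx with rfl | rfl | rfl | rfl | rfl <;> assumption
  have h1 := Set.ncard_le_ncard hsub (Set.toFinite _)
  rw [Set.ncard_coe_finset, hcard] at h1
  have h2 : (Q : Set G).ncard = 4 := by
    rw [← hQ4]
    exact (Nat.card_coe_set_eq (Q : Set G)).symm
  omega

theorem pkgFrame : PkgFrame.{u, v} := by
  intro G _ _ V _ _ _ ρ b Q hinj hb3 hQ4 hQ2 hQn hQm hJ
  classical
  obtain ⟨q₁, hq₁, hq₁b⟩ := hQm
  obtain ⟨q₂, hq₂def⟩ : ∃ q₂, q₂ = b * q₁ * b⁻¹ := ⟨_, rfl⟩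
  obtain ⟨q₃, hq₃def⟩ : ∃ q₃, q₃ = b * q₂ * b⁻¹ := ⟨_, rfl⟩
  have hq₂ : q₂ ∈ Q := hq₂def ▸ hQn q₁ hq₁
  have hq₃ : q₃ ∈ Q := hq₃def ▸ hQn q₂ hq₂
  have hb3' : b * (b * b) = 1 := by rw [← hb3, pow_succ, pow_two, mul_assoc]
  have hq₃b : b * q₃ * b⁻¹ = q₁ := by
    rw [hq₃def, hq₂def]
    have h1 : b * (b * (b * q₁ * b⁻¹) * b⁻¹) * b⁻¹ = (b * (b * b)) * q₁ * (b * (b * b))⁻¹ := by
      group
    rw [h1, hb3']
    group
  have hq₁1 : q₁ ≠ 1 := by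
    intro h
    apply hq₁b
    rw [h]
    group
  have hq₂1 : q₂ ≠ 1 := by
    intro h
    apply hq₁1
    rw [hq₂def] at h
    exact conj_eq_one_iff.mp h
  have hq₁₂ : q₁ ≠ q₂ := by
    intro h
    apply hq₁b
    rw [← hq₂def, ← h]
  have hcomm : ∀ x ∈ Q, ∀ y ∈ Q, x * y = y * x := fun x hx y hy => comm_of_sq Q hQ2 x y hx hy
  have hq₁sq := hQ2 q₁ hq₁
  have hq₂sq := hQ2 q₂ hq₂
  have hQall : ∀ q ∈ Q, q = 1 ∨ q = q₁ ∨ q = q₂ ∨ q = q₁ * q₂ := by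
    intro q hq
    refine four_elts Q hQ4 1 q₁ q₂ (q₁ * q₂) Q.one_mem hq₁ hq₂ (Q.mul_mem hq₁ hq₂)
      (Ne.symm hq₁1) (Ne.symm hq₂1) ?_ hq₁₂ ?_ ?_ q hq
    · intro h
      apply hq₁₂
      calc q₁ = (q₁ * q₂) * q₂ := by rw [mul_assoc, hq₂sq, mul_one]
        _ = q₂ := by rw [← h, one_mul]
    · intro h
      apply hq₂1
      calc q₂ = q₁⁻¹ * (q₁ * q₂) := by group
        _ = q₁⁻¹ * q₁ := by rw [← h]
        _ = 1 := by group
    · intro h
      apply hq₁1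
      calc q₁ = (q₁ * q₂) * q₂⁻¹ := by group
        _ = q₂ * q₂⁻¹ := by rw [← h]
        _ = 1 := by group
  have hq₃eq : q₃ = q₁ * q₂ := by
    rcases hQall q₃ hq₃ with h | h | h | h
    · exfalso
      apply hq₂1
      rw [hq₃def] at h
      exact conj_eq_one_iff.mp h
    · exfalso
      apply hq₁b
      rw [h] at hq₃b
      exact hq₃b
    · exfalso
      apply hq₁₂
      rw [← hq₃b, h, ← hq₃def, h]
    · exact h
  -- the linear maps
  have hkey : ∀ (g h : G) (x : V), ρ (g * h) x = ρ g (ρ h x) := by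
    intro g h x
    rw [map_mul]
    rfl
  have hone : ∀ x : V, ρ 1 x = x := by
    intro x
    rw [map_one]
    rfl
  obtain ⟨A, hA⟩ : ∃ A : V →ₗ[ZMod 3] V, A = ρ q₁ := ⟨_, rfl⟩
  obtain ⟨B, hB⟩ : ∃ B : V →ₗ[ZMod 3] V, B = ρ q₂ := ⟨_, rfl⟩
  obtain ⟨T, hT⟩ : ∃ T : V →ₗ[ZMod 3] V, T = ρ b := ⟨_, rfl⟩
  have hA2 : ∀ x, A (A x) = x := by
    intro x
    rw [hA, ← hkey, hq₁sq, hone]
  have hB2 : ∀ x, B (B x) = x := by
    intro x
    rw [hB, ← hkey, hq₂sq, hone]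
  have hAB : ∀ x, A (B x) = B (A x) := by
    intro x
    rw [hA, hB, ← hkey, ← hkey, hcomm q₁ hq₁ q₂ hq₂]
  have hT3 : ∀ x, T (T (T x)) = x := by
    intro x
    rw [hT, ← hkey, ← hkey, mul_assoc, hb3', hone]
  have hTA : ∀ x, T (A x) = B (T x) := by
    intro x
    have h1 : b * q₁ = q₂ * b := by rw [hq₂def]; group
    rw [hT, hA, hB, ← hkey, ← hkey, h1]
  have hTB : ∀ x, T (B x) = B (A (T x)) := by
    intro x
    have h1 : b * q₂ = q₂ * (q₁ * b) := by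
      have h2 : b * q₂ = q₃ * b := by rw [hq₃def]; group
      rw [h2, hq₃eq, hcomm q₁ hq₁ q₂ hq₂, mul_assoc]
    rw [hT, hA, hB, ← hkey, ← hkey, ← hkey, h1, mul_assoc]
  have h3 : ∀ x : V, x + x + x = 0 := by
    intro x
    have h1 : (1 + 1 + 1 : ZMod 3) • x = 0 := by
      rw [show (1 + 1 + 1 : ZMod 3) = 0 from by decide, zero_smul]
    simpa [add_smul] using h1
  -- eigenspaces
  obtain ⟨C0, hC0⟩ : ∃ C0 : Submodule (ZMod 3) V, ∀ u, u ∈ C0 ↔ A u = u ∧ B u = u :=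
    ⟨LinearMap.ker (A - LinearMap.id) ⊓ LinearMap.ker (B - LinearMap.id), fun u => by
      simp [LinearMap.mem_ker, sub_eq_zero]⟩
  obtain ⟨W1, hW1⟩ : ∃ W1 : Submodule (ZMod 3) V, ∀ u, u ∈ W1 ↔ A u = u ∧ B u = -u :=
    ⟨LinearMap.ker (A - LinearMap.id) ⊓ LinearMap.ker (B + LinearMap.id), fun u => by
      simp [LinearMap.mem_ker, sub_eq_zero, add_eq_zero_iff_eq_neg]⟩
  obtain ⟨W2, hW2⟩ : ∃ W2 : Submodule (ZMod 3) V, ∀ u, u ∈ W2 ↔ A u = -u ∧ B u = u :=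
    ⟨LinearMap.ker (A + LinearMap.id) ⊓ LinearMap.ker (B - LinearMap.id), fun u => by
      simp [LinearMap.mem_ker, sub_eq_zero, add_eq_zero_iff_eq_neg]⟩
  obtain ⟨W3, hW3⟩ : ∃ W3 : Submodule (ZMod 3) V, ∀ u, u ∈ W3 ↔ A u = -u ∧ B u = -u :=
    ⟨LinearMap.ker (A + LinearMap.id) ⊓ LinearMap.ker (B + LinearMap.id), fun u => by
      simp [LinearMap.mem_ker, add_eq_zero_iff_eq_neg]⟩
  -- directness
  have hdir : ∀ c ∈ C0, ∀ x₁ ∈ W1, ∀ x₂ ∈ W2, ∀ x₃ ∈ W3, c + x₁ + x₂ + x₃ = 0 →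
      c = 0 ∧ x₁ = 0 ∧ x₂ = 0 ∧ x₃ = 0 := by
    intro c hc x₁ h1 x₂ h2 x₃ h3' e0
    rw [hC0] at hc
    rw [hW1] at h1
    rw [hW2] at h2
    rw [hW3] at h3'
    have e1 : c + x₁ + -x₂ + -x₃ = 0 := by
      have e := congrArg A e0
      rw [map_add, map_add, map_add, map_zero, hc.1, h1.1, h2.1, h3'.1] at e
      exact e
    have e2 : c + -x₁ + x₂ + -x₃ = 0 := by
      have e := congrArg B e0
      rw [map_add, map_add, map_add, map_zero, hc.2, h1.2, h2.2, h3'.2] at e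
      exact e
    have e3 : c + -x₁ + -x₂ + x₃ = 0 := by
      have e := congrArg B e1
      rw [map_add, map_add, map_add, map_neg, map_neg, map_zero, hc.2, h1.2, h2.2, h3'.2,
        neg_neg] at e
      exact e
    refine ⟨?_, ?_, ?_, ?_⟩
    · have h4 : c + (c + c + c) = (c + x₁ + x₂ + x₃) + (c + x₁ + -x₂ + -x₃)
          + (c + -x₁ + x₂ + -x₃) + (c + -x₁ + -x₂ + x₃) := by abel
      rw [e0, e1, e2, e3, h3 c] at h4
      simpa using h4
    · have h4 : x₁ + (x₁ + x₁ + x₁) = (c + x₁ + x₂ + x₃) + (c + x₁ + -x₂ + -x₃)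
          - (c + -x₁ + x₂ + -x₃) - (c + -x₁ + -x₂ + x₃) := by abel
      rw [e0, e1, e2, e3, h3 x₁] at h4
      simpa using h4
    · have h4 : x₂ + (x₂ + x₂ + x₂) = (c + x₁ + x₂ + x₃) - (c + x₁ + -x₂ + -x₃)
          + (c + -x₁ + x₂ + -x₃) - (c + -x₁ + -x₂ + x₃) := by abel
      rw [e0, e1, e2, e3, h3 x₂] at h4
      simpa using h4
    · have h4 : x₃ + (x₃ + x₃ + x₃) = (c + x₁ + x₂ + x₃) - (c + x₁ + -x₂ + -x₃)
          - (c + -x₁ + x₂ + -x₃) + (c + -x₁ + -x₂ + x₃) := by abel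
      rw [e0, e1, e2, e3, h3 x₃] at h4
      simpa using h4
  -- the action of `T` on the eigenspaces
  have hT0 : ∀ u ∈ C0, T u ∈ C0 := by
    intro u hu
    rw [hC0] at hu ⊢
    have hb1 : B (T u) = T u := by rw [← hTA, hu.1]
    have h1 := hTB u
    rw [hu.2] at h1
    have h2 := congrArg B h1
    rw [hB2, hb1] at h2
    exact ⟨h2.symm, hb1⟩
  have hT1 : ∀ u ∈ W1, T u ∈ W2 := by
    intro u hu
    rw [hW1] at hu
    rw [hW2]
    have hb1 : B (T u) = T u := by rw [← hTA, hu.1]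
    have h1 := hTB u
    rw [hu.2, map_neg] at h1
    have h2 := congrArg B h1
    rw [hB2, map_neg, hb1] at h2
    exact ⟨h2.symm, hb1⟩
  have hT2 : ∀ u ∈ W2, T u ∈ W3 := by
    intro u hu
    rw [hW2] at hu
    rw [hW3]
    have hb1 : B (T u) = -T u := by rw [← hTA, hu.1, map_neg]
    have h1 := hTB u
    rw [hu.2] at h1
    have h2 := congrArg B h1
    rw [hB2, hb1] at h2
    exact ⟨h2.symm, hb1⟩
  have hT3' : ∀ u ∈ W3, T u ∈ W1 := by
    intro u hu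
    rw [hW3] at hu
    rw [hW1]
    have hb1 : B (T u) = -T u := by rw [← hTA, hu.1, map_neg]
    have h1 := hTB u
    rw [hu.2, map_neg] at h1
    have h2 := congrArg B h1
    rw [hB2, map_neg, hb1, neg_neg] at h2
    exact ⟨h2.symm, hb1⟩
  -- the four projections
  have hpc : ∀ x, x + A x + B x + B (A x) ∈ C0 := by
    intro x
    rw [hC0]
    constructor
    · simp only [map_add, hA2, hAB, hB2]; abel
    · simp only [map_add, hA2, hAB, hB2]; abel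
  have hp1 : ∀ x, x + A x - B x - B (A x) ∈ W1 := by
    intro x
    rw [hW1]
    constructor
    · simp only [map_add, map_sub, hA2, hAB, hB2]; abel
    · simp only [map_add, map_sub, hA2, hAB, hB2]; abel
  have hp2 : ∀ x, x - A x + B x - B (A x) ∈ W2 := by
    intro x
    rw [hW2]
    constructor
    · simp only [map_add, map_sub, hA2, hAB, hB2]; abel
    · simp only [map_add, map_sub, hA2, hAB, hB2]; abel
  have hp3 : ∀ x, x - A x - B x + B (A x) ∈ W3 := by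
    intro x
    rw [hW3]
    constructor
    · simp only [map_add, map_sub, hA2, hAB, hB2]; abel
    · simp only [map_add, map_sub, hA2, hAB, hB2]; abel
  have hsum : ∀ x, x = (x + A x + B x + B (A x)) + (x + A x - B x - B (A x))
      + (x - A x + B x - B (A x)) + (x - A x - B x + B (A x)) := by
    intro x
    have h1 : (x + A x + B x + B (A x)) + (x + A x - B x - B (A x))
      + (x - A x + B x - B (A x)) + (x - A x - B x + B (A x)) = x + (x + x + x) := by abel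
    rw [h1, h3 x, add_zero]
  -- `W1 ≠ 0`
  have hW1ne : ∃ w₁, w₁ ∈ W1 ∧ w₁ ≠ 0 := by
    by_contra hcon
    have hz : ∀ w ∈ W1, w = 0 := by
      intro w hw
      by_contra hw0
      exact hcon ⟨w, hw, hw0⟩
    apply hq₁1
    apply hinj
    rw [map_one]
    apply LinearMap.ext
    intro x
    rw [← hA]
    have e1 : x + A x - B x - B (A x) = 0 := hz _ (hp1 x)
    have e2 : x - A x + B x - B (A x) = 0 := by
      have h1 := hz _ (hT3' _ (hT2 _ (hp2 x)))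
      have h2 := hT3 (x - A x + B x - B (A x))
      rw [h1, map_zero] at h2
      exact h2.symm
    have e3 : x - A x - B x + B (A x) = 0 := by
      have h1 := hz _ (hT3' _ (hp3 x))
      have h2 := hT3 (x - A x - B x + B (A x))
      rw [h1, map_zero, map_zero] at h2
      exact h2.symm
    have hx := hsum x
    rw [e1, e2, e3, add_zero, add_zero, add_zero] at hx
    have hAx := ((hC0 _).mp (hpc x)).1
    rw [← hx] at hAx
    exact hAx
  obtain ⟨w₁, hw₁, hw₁0⟩ := hW1ne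
  obtain ⟨w₂, hw₂def⟩ : ∃ w₂, w₂ = T w₁ := ⟨_, rfl⟩
  obtain ⟨w₃, hw₃def⟩ : ∃ w₃, w₃ = T w₂ := ⟨_, rfl⟩
  have hw₂ : w₂ ∈ W2 := hw₂def ▸ hT1 w₁ hw₁
  have hw₃ : w₃ ∈ W3 := hw₃def ▸ hT2 w₂ hw₂
  have hTw₃ : T w₃ = w₁ := by rw [hw₃def, hw₂def, hT3]
  have hw₂0 : w₂ ≠ 0 := by
    intro h
    apply hw₁0
    rw [← hTw₃, hw₃def, h, map_zero, map_zero]
  have hw₃0 : w₃ ≠ 0 := by
    intro h
    apply hw₁0
    rw [← hTw₃, h, map_zero]
  -- the image of `T - 1`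
  obtain ⟨v, hv, hJ2⟩ := hJ
  rw [← hT] at hv hJ2
  obtain ⟨p, hp⟩ : ∃ p, p = T v - v := ⟨_, rfl⟩
  obtain ⟨r, hr⟩ : ∃ r, r = T p - p := ⟨_, rfl⟩
  rw [← hp] at hJ2 hv
  rw [← hr] at hJ2 hv
  obtain ⟨a₁, c₁, h1⟩ := hJ2 w₁
  obtain ⟨a₂, c₂, h2⟩ := hJ2 w₂
  rw [← hw₂def] at h1
  rw [← hw₃def] at h2
  have hindep : ∀ s₁ s₂ s₃ : ZMod 3, s₁ • w₁ + s₂ • w₂ + s₃ • w₃ = 0 →
      s₁ = 0 ∧ s₂ = 0 ∧ s₃ = 0 := by
    intro s₁ s₂ s₃ h
    have h' : (0 : V) + s₁ • w₁ + s₂ • w₂ + s₃ • w₃ = 0 := by rw [zero_add]; exact h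
    obtain ⟨-, e1, e2, e3⟩ := hdir 0 C0.zero_mem _ (W1.smul_mem s₁ hw₁) _ (W2.smul_mem s₂ hw₂) _
      (W3.smul_mem s₃ hw₃) h'
    exact ⟨(smul_eq_zero.mp e1).resolve_right hw₁0, (smul_eq_zero.mp e2).resolve_right hw₂0,
      (smul_eq_zero.mp e3).resolve_right hw₃0⟩
  have hD : a₁ * c₂ - a₂ * c₁ ≠ 0 := by
    intro hD0
    have e1 : (-c₂) • w₁ + (c₂ + c₁) • w₂ + (-c₁) • w₃ = 0 := by
      have : (-c₂) • w₁ + (c₂ + c₁) • w₂ + (-c₁) • w₃ = c₂ • (w₂ - w₁) - c₁ • (w₃ - w₂) := by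
        module
      rw [this, h1, h2]
      have : c₂ • (a₁ • p + c₁ • r) - c₁ • (a₂ • p + c₂ • r) = (a₁ * c₂ - a₂ * c₁) • p := by
        module
      rw [this, hD0, zero_smul]
    obtain ⟨hc2, -, hc1⟩ := hindep _ _ _ e1
    have e2 : (-a₂) • w₁ + (a₂ + a₁) • w₂ + (-a₁) • w₃ = 0 := by
      have : (-a₂) • w₁ + (a₂ + a₁) • w₂ + (-a₁) • w₃ = a₂ • (w₂ - w₁) - a₁ • (w₃ - w₂) := by
        module
      rw [this, h1, h2]
      have : a₂ • (a₁ • p + c₁ • r) - a₁ • (a₂ • p + c₂ • r) = (-(a₁ * c₂ - a₂ * c₁)) • r := by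
        module
      rw [this, hD0, neg_zero, zero_smul]
    obtain ⟨ha2, -, ha1⟩ := hindep _ _ _ e2
    rw [neg_eq_zero] at hc2 hc1 ha2 ha1
    rw [ha1, hc1, zero_smul, zero_smul, add_zero] at h1
    have e3 : (-1 : ZMod 3) • w₁ + (1 : ZMod 3) • w₂ + (0 : ZMod 3) • w₃ = 0 := by
      have : (-1 : ZMod 3) • w₁ + (1 : ZMod 3) • w₂ + (0 : ZMod 3) • w₃ = w₂ - w₁ := by module
      rw [this, h1]
    obtain ⟨-, h', -⟩ := hindep _ _ _ e3
    exact one_ne_zero h'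
  have himg : ∀ x : V, ∃ α β : ZMod 3, T x - x = α • (w₂ - w₁) + β • (w₃ - w₂) := by
    intro x
    obtain ⟨a, c, hx⟩ := hJ2 x
    obtain ⟨D, hDdef⟩ : ∃ D, D = a₁ * c₂ - a₂ * c₁ := ⟨_, rfl⟩
    rw [← hDdef] at hD
    have hp' : D • p = c₂ • (w₂ - w₁) - c₁ • (w₃ - w₂) := by
      rw [h1, h2, hDdef]; module
    have hr' : D • r = a₁ • (w₃ - w₂) - a₂ • (w₂ - w₁) := by
      rw [h1, h2, hDdef]; module
    refine ⟨D⁻¹ * (a * c₂ - c * a₂), D⁻¹ * (c * a₁ - a * c₁), ?_⟩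
    have h4 : D • (T x - x) = D • ((D⁻¹ * (a * c₂ - c * a₂)) • (w₂ - w₁)
        + (D⁻¹ * (c * a₁ - a * c₁)) • (w₃ - w₂)) := by
      rw [hx]
      have e1 : D • (a • p + c • r) = a • (D • p) + c • (D • r) := by module
      rw [e1, hp', hr']
      have e2 : D • ((D⁻¹ * (a * c₂ - c * a₂)) • (w₂ - w₁)
          + (D⁻¹ * (c * a₁ - a * c₁)) • (w₃ - w₂))
          = (D * D⁻¹) • ((a * c₂ - c * a₂) • (w₂ - w₁) + (c * a₁ - a * c₁) • (w₃ - w₂)) := by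
        module
      rw [e2, mul_inv_cancel₀ hD, one_smul]
      module
    exact smul_right_injective V hD h4
  -- `W1` is the line through `w₁`
  have hline : ∀ u ∈ W1, ∃ s : ZMod 3, u = s • w₁ := by
    intro u hu
    obtain ⟨α, β, hx⟩ := himg u
    refine ⟨α, ?_⟩
    have e : (0 : V) + (α • w₁ - u) + (T u + (β - α) • w₂) + (-β) • w₃ = 0 := by
      have : (0 : V) + (α • w₁ - u) + (T u + (β - α) • w₂) + (-β) • w₃
          = (T u - u) - (α • (w₂ - w₁) + β • (w₃ - w₂)) := by module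
      rw [this, hx, sub_self]
    obtain ⟨-, e1, -, -⟩ := hdir 0 C0.zero_mem _ (W1.sub_mem (W1.smul_mem α hw₁) hu) _
      (W2.add_mem (hT1 u hu) (W2.smul_mem _ hw₂)) _ (W3.smul_mem _ hw₃) e
    exact (sub_eq_zero.mp e1).symm
  -- `T` fixes `C0`
  have hfix : ∀ c ∈ C0, T c = c := by
    intro c hc
    obtain ⟨α, β, hx⟩ := himg c
    have e : (T c - c) + (α • w₁) + ((β - α) • w₂) + (-β) • w₃ = 0 := by
      have : (T c - c) + (α • w₁) + ((β - α) • w₂) + (-β) • w₃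
          = (T c - c) - (α • (w₂ - w₁) + β • (w₃ - w₂)) := by module
      rw [this, hx, sub_self]
    obtain ⟨e1, -, -, -⟩ := hdir _ (C0.sub_mem (hT0 c hc) hc) _ (W1.smul_mem α hw₁) _
      (W2.smul_mem _ hw₂) _ (W3.smul_mem _ hw₃) e
    exact sub_eq_zero.mp e1
  have hw₁' := (hW1 w₁).mp hw₁
  have hw₂' := (hW2 w₂).mp hw₂
  have hw₃' := (hW3 w₃).mp hw₃
  refine ⟨q₁, q₂, w₁, w₂, w₃, hq₁, hq₂, hq₁1, hq₂1, hq₁₂, hcomm q₁ hq₁ q₂ hq₂, hQall,
    hq₂def.symm, ?_, ?_, ?_, ?_, hw₁0, ?_, ?_, ?_, ?_, ?_, ?_, ?_, ?_⟩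
  · rw [← hq₃def, hq₃eq]
  · rw [← hT, hw₂def]
  · rw [← hT, hw₃def]
  · rw [← hT, hTw₃]
  · rw [← hA]; exact hw₁'.1
  · rw [← hA]; exact hw₂'.1
  · rw [← hA]; exact hw₃'.1
  · rw [← hB]; exact hw₁'.2
  · rw [← hB]; exact hw₂'.2
  · rw [← hB]; exact hw₃'.2
  · intro x
    obtain ⟨s₁, hs₁⟩ := hline _ (hp1 x)
    obtain ⟨s₂, hs₂⟩ := hline _ (hT3' _ (hT2 _ (hp2 x)))
    obtain ⟨s₃, hs₃⟩ := hline _ (hT3' _ (hp3 x))
    have e2 : x - A x + B x - B (A x) = s₂ • w₂ := by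
      have h := hT3 (x - A x + B x - B (A x))
      rw [hs₂, map_smul, ← hw₂def] at h
      exact h.symm
    have e3 : x - A x - B x + B (A x) = s₃ • w₃ := by
      have h := hT3 (x - A x - B x + B (A x))
      rw [hs₃, map_smul, map_smul, ← hw₂def, ← hw₃def] at h
      exact h.symm
    have hc := (hC0 _).mp (hpc x)
    refine ⟨x + A x + B x + B (A x), s₁, s₂, s₃, ?_, ?_, ?_, ?_⟩
    · have hx := hsum x
      rw [hs₁, e2, e3] at hx
      exact hx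
    · rw [← hA]; exact hc.1
    · rw [← hB]; exact hc.2
    · rw [← hT]; exact hfix _ (hpc x)
  · intro c s₁ s₂ s₃ hc1 hc2 h
    rw [← hA] at hc1
    rw [← hB] at hc2
    obtain ⟨e0, e1, e2, e3⟩ := hdir c ((hC0 c).mpr ⟨hc1, hc2⟩) _ (W1.smul_mem s₁ hw₁) _
      (W2.smul_mem s₂ hw₂) _ (W3.smul_mem s₃ hw₃) h
    exact ⟨e0, (smul_eq_zero.mp e1).resolve_right hw₁0, (smul_eq_zero.mp e2).resolve_right hw₂0,
      (smul_eq_zero.mp e3).resolve_right hw₃0⟩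

end Cfsg.Agent.Lib.Helper67.S4415
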