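import Mathlib
import Cfsg.Agent.Lib.Helper78.S4415.Defs

/-!
# S4415 package [ODD]: a normal elementary abelian `p`-subgroup of `R`, `p` odd, is centralized
by `b`
-/

set_option autoImplicit false
set_option linter.unusedSimpArgs false

namespace Cfsg.Agent.Lib.Helper67.S4415

open Cfsg.Agent.Lib.Helper78.S4415

universe u v

theorem card_pow3 {M : Type v} [AddCommGroup M] [Module (ZMod 3) M] [Finite M] :
    ∃ a : ℕ, Nat.card M = 3 ^ a := by
  classical
  have := Fintype.ofFinite M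
  refine ⟨Module.finrank (ZMod 3) M, ?_⟩
  rw [Nat.card_eq_fintype_card, Module.card_eq_pow_finrank (K := ZMod 3) (V := M), ZMod.card]

/-- a linear map of prime order `p ≥ 5` is the identity on every invariant subspace spanned by
two vectors (over the field with three elements) -/
theorem small_fix {V : Type v} [AddCommGroup V] [Module (ZMod 3) V] [Finite V]
    (X : V →ₗ[ZMod 3] V) (p : ℕ) (hp : p.Prime) (hp5 : 5 ≤ p) (hXp : X ^ p = 1)
    (S : Submodule (ZMod 3) V) (hS : ∀ s ∈ S, X s ∈ S) (u₁ u₂ : V)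
    (hspan : ∀ s ∈ S, ∃ a b : ZMod 3, s = a • u₁ + b • u₂) : ∀ s ∈ S, X s = s := by
  classical
  have : Fact p.Prime := ⟨hp⟩
  have := Fintype.ofFinite ↥S
  have hcardS : Nat.card ↥S ≤ 9 := by
    choose fa fb hfab using hspan
    have hinj : Function.Injective (fun s : ↥S => (fa s.1 s.2, fb s.1 s.2)) := by
      intro s t hst
      simp only [Prod.mk.injEq] at hst
      apply Subtype.ext
      rw [hfab s.1 s.2, hfab t.1 t.2, hst.1, hst.2]
    have h1 := Nat.card_le_card_of_injective _ hinj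
    rw [Nat.card_prod, Nat.card_zmod] at h1
    exact h1
  obtain ⟨f, hf⟩ : ∃ f : Function.End ↥S, ∀ s : ↥S, ((f s : ↥S) : V) = X s :=
    ⟨fun s => ⟨X s, hS s s.2⟩, fun s => rfl⟩
  have hfpow : ∀ k : ℕ, ∀ s : ↥S, (((f ^ k) s : ↥S) : V) = (X ^ k) s := by
    intro k
    induction k with
    | zero => intro s; rfl
    | succ k ih =>
      intro s
      rw [pow_succ, pow_succ]
      have h1 : (f ^ k * f) s = (f ^ k) (f s) := rfl
      rw [h1, ih (f s), hf s]
      rfl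
  have hfp : f ^ p ^ 1 = 1 := by
    rw [pow_one]
    funext s
    apply Subtype.ext
    rw [hfpow p s, hXp]
    rfl
  have hmod := Equiv.Perm.card_fixedPoints_modEq hfp
  rw [Fintype.card_eq_nat_card, Fintype.card_eq_nat_card] at hmod
  -- the fixed points form a submodule
  obtain ⟨K, hK⟩ : ∃ K : Submodule (ZMod 3) ↥S, ∀ s : ↥S, s ∈ K ↔ X s = s := by
    refine ⟨LinearMap.ker ((X - LinearMap.id).comp S.subtype), fun s => ?_⟩
    simp [LinearMap.mem_ker, sub_eq_zero]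
  have hset : Function.fixedPoints f = (K : Set ↥S) := by
    ext s
    rw [SetLike.mem_coe, hK]
    change f s = s ↔ _
    constructor
    · intro h
      rw [← hf s, h]
    · intro h
      apply Subtype.ext
      rw [hf s, h]
  rw [hset] at hmod
  have hcK : Nat.card ↥(K : Set ↥S) = Nat.card ↥K := rfl
  rw [hcK] at hmod
  obtain ⟨a, ha⟩ := card_pow3 (M := ↥S)
  obtain ⟨c, hc⟩ := card_pow3 (M := ↥K)
  have hle : Nat.card ↥K ≤ Nat.card ↥S :=
    Nat.card_le_card_of_injective (Subtype.val) Subtype.val_injective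
  rw [ha] at hcardS hle hmod
  rw [hc] at hle hmod
  have ha2 : a ≤ 2 := by
    by_contra h
    have : 3 ^ 3 ≤ 3 ^ a := Nat.pow_le_pow_right (by norm_num) (by omega)
    omega
  have hca : c ≤ a := (Nat.pow_le_pow_iff_right (by norm_num)).mp hle
  have hdvd : p ∣ 3 ^ a - 3 ^ c := (Nat.modEq_iff_dvd' hle).mp hmod.symm
  have hac : a = c := by
    by_contra hne
    have hpos : 0 < 3 ^ a - 3 ^ c := by
      have : 3 ^ c < 3 ^ a := Nat.pow_lt_pow_right (by norm_num) (by omega)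
      omega
    have h8 : 3 ^ a - 3 ^ c = 2 ∨ 3 ^ a - 3 ^ c = 8 ∨ 3 ^ a - 3 ^ c = 6 := by
      interval_cases a <;> interval_cases c <;> first | exact absurd rfl hne | norm_num
    rcases h8 with h | h | h <;> rw [h] at hdvd
    · have := Nat.le_of_dvd (by norm_num) hdvd
      omega
    · have := Nat.le_of_dvd (by norm_num) hdvd
      interval_cases p
      · omega
      · exact absurd hp (by norm_num)
      · omega
      · exact absurd hp (by norm_num)
    · have := Nat.le_of_dvd (by norm_num) hdvd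
      interval_cases p
      · omega
      · exact absurd hp (by norm_num)
  have hKtop : K.toAddSubgroup = ⊤ := by
    apply AddSubgroup.eq_top_of_card_eq
    have h1 : Nat.card ↥K.toAddSubgroup = Nat.card ↥K := rfl
    rw [h1, hc, ha, hac]
  intro s hs
  have h1 : (⟨s, hs⟩ : ↥S) ∈ K.toAddSubgroup := by rw [hKtop]; trivial
  exact (hK ⟨s, hs⟩).mp h1

/-- KEY: an element `x` of prime order `p ≥ 5` commuting with `qa` and inverted by `qb` is
trivial, in the presence of a weight frame. -/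
theorem key {G : Type u} [Group G] {V : Type v} [AddCommGroup V] [Module (ZMod 3) V] [Finite V]
    (ρ : Representation (ZMod 3) G V) (hinj : Function.Injective ρ)
    (p : ℕ) (hp : p.Prime) (hp5 : 5 ≤ p)
    (x qa qb : G) (hx : x ^ p = 1) (hqa : qa * qa = 1) (hqb : qb * qb = 1)
    (hab : qa * qb = qb * qa) (hxa : x * qa = qa * x) (hxb : qb * x * qb = x⁻¹)
    (P : V → Prop) (hP0 : P 0) (hPadd : ∀ c, P c → P (c + c))
    (hPa : ∀ c, P c → ρ qa c = c) (hPb : ∀ c, P c → ρ qb c = c)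
    (wa wb wc : V) (haa : ρ qa wa = wa) (hab' : ρ qa wb = -wb) (hac : ρ qa wc = -wc)
    (hba : ρ qb wa = -wa)
    (hdec : ∀ v, ∃ (c : V) (a b d : ZMod 3), v = c + a • wa + b • wb + d • wc ∧ P c)
    (hdir : ∀ (c : V) (a b d : ZMod 3), P c → c + a • wa + b • wb + d • wc = 0 →
      c = 0 ∧ a = 0 ∧ b = 0 ∧ d = 0) : x = 1 := by
  classical
  have hkey : ∀ (g h : G) (v : V), ρ (g * h) v = ρ g (ρ h v) := fun g h v => by
    rw [map_mul]; rfl
  have hone : ∀ v : V, ρ 1 v = v := fun v => by rw [map_one]; rfl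
  have h3 : ∀ v : V, v + v + v = 0 := by
    intro v
    have h1 : (1 + 1 + 1 : ZMod 3) • v = 0 := by
      rw [show (1 + 1 + 1 : ZMod 3) = 0 from by decide, zero_smul]
    simpa [add_smul] using h1
  have hz3 : ∀ a : ZMod 3, a + a = 0 → a = 0 := by decide
  obtain ⟨X, hX⟩ : ∃ X : V →ₗ[ZMod 3] V, X = ρ x := ⟨_, rfl⟩
  obtain ⟨A, hA⟩ : ∃ A : V →ₗ[ZMod 3] V, A = ρ qa := ⟨_, rfl⟩
  obtain ⟨T, hT⟩ : ∃ T : V →ₗ[ZMod 3] V, T = ρ qb := ⟨_, rfl⟩
  rw [← hA] at haa hab' hac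
  rw [← hT] at hba
  have hPa' : ∀ c, P c → A c = c := fun c hc => by rw [hA]; exact hPa c hc
  have hPb' : ∀ c, P c → T c = c := fun c hc => by rw [hT]; exact hPb c hc
  have hXp : X ^ p = 1 := by rw [hX, ← map_pow, hx, map_one]
  have hXA : ∀ v, X (A v) = A (X v) := fun v => by rw [hX, hA, ← hkey, ← hkey, hxa]
  have hAT : ∀ v, A (T v) = T (A v) := fun v => by rw [hA, hT, ← hkey, ← hkey, hab]
  have hA2 : ∀ v, A (A v) = v := fun v => by rw [hA, ← hkey, hqa, hone]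
  -- the `+1`-space of `A`
  have H1 : ∀ v, A v = v → ∃ s : ZMod 3, T v = v + s • wa := by
    intro v hv
    obtain ⟨c, a, b, d, hvd, hc⟩ := hdec v
    have hAc : A c = c := hPa' c hc
    have hTc : T c = c := hPb' c hc
    have hAv : A v = c + a • wa + -(b • wb) + -(d • wc) := by
      rw [hvd, map_add, map_add, map_add, map_smul, map_smul, map_smul, hAc, haa, hab', hac,
        smul_neg, smul_neg]
    have e : (0 : V) + (0 : ZMod 3) • wa + (b + b) • wb + (d + d) • wc = 0 := by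
      have e1 : (0 : V) + (0 : ZMod 3) • wa + (b + b) • wb + (d + d) • wc = v - A v := by
        rw [hAv, hvd]; module
      rw [e1, hv, sub_self]
    obtain ⟨-, -, hb, hd⟩ := hdir 0 0 (b + b) (d + d) hP0 e
    have hb0 := hz3 b hb
    have hd0 := hz3 d hd
    refine ⟨a, ?_⟩
    rw [hvd, hb0, hd0, zero_smul, zero_smul, add_zero, add_zero, map_add, map_smul, hTc, hba,
      smul_neg, ← sub_eq_zero]
    have e2 : c + -(a • wa) - (c + a • wa + a • wa) = -(a • wa + a • wa + a • wa) := by abel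
    rw [e2, h3, neg_zero]
  -- the `-1`-space of `A`
  have H2 : ∀ v, A v = -v → ∃ s t : ZMod 3, v = s • wb + t • wc := by
    intro v hv
    obtain ⟨c, a, b, d, hvd, hc⟩ := hdec v
    have hAc : A c = c := hPa' c hc
    have hAv : A v = c + a • wa + -(b • wb) + -(d • wc) := by
      rw [hvd, map_add, map_add, map_add, map_smul, map_smul, map_smul, hAc, haa, hab', hac,
        smul_neg, smul_neg]
    have e : (c + c) + (a + a) • wa + (0 : ZMod 3) • wb + (0 : ZMod 3) • wc = 0 := by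
      have e1 : (c + c) + (a + a) • wa + (0 : ZMod 3) • wb + (0 : ZMod 3) • wc = v + A v := by
        rw [hAv, hvd]; module
      rw [e1, hv, add_neg_cancel]
    obtain ⟨hcc, haa', -, -⟩ := hdir (c + c) (a + a) 0 0 (hPadd c hc) e
    have hc0 : c = 0 := by
      have h := h3 c
      rw [hcc, zero_add] at h
      exact h
    have ha0 := hz3 a haa'
    refine ⟨b, d, ?_⟩
    rw [hvd, hc0, ha0, zero_smul, zero_add, zero_add]
  -- `X = 1` on the `-1`-space
  have hminus : ∀ v, A v = -v → X v = v := by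
    obtain ⟨S, hSdef⟩ : ∃ S : Submodule (ZMod 3) V, ∀ v, v ∈ S ↔ A v = -v :=
      ⟨LinearMap.ker (A + LinearMap.id), fun v => by
        simp [LinearMap.mem_ker, add_eq_zero_iff_eq_neg]⟩
    intro v hv
    refine small_fix X p hp hp5 hXp S ?_ wb wc ?_ v ((hSdef v).mpr hv)
    · intro s hs
      rw [hSdef] at hs ⊢
      rw [← hXA, hs, map_neg]
    · intro s hs
      exact H2 s ((hSdef s).mp hs)
  -- the square root `y` of `x`
  obtain ⟨m, hm⟩ : ∃ m, p = 2 * m + 1 := by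
    rcases hp.eq_two_or_odd' with h | ⟨m, hm⟩
    · omega
    · exact ⟨m, hm⟩
  obtain ⟨y, hy⟩ : ∃ y : G, y = x ^ (m + 1) := ⟨_, rfl⟩
  have hyy : y * y = x := by
    rw [hy, ← pow_add]
    have h1 : m + 1 + (m + 1) = p + 1 := by omega
    rw [h1, pow_succ, hx, one_mul]
  have hqbinv : qb⁻¹ = qb := inv_eq_of_mul_eq_one_left hqb
  have hya : y * qa = qa * y := by
    rw [hy]
    exact (Commute.pow_left (show Commute x qa from hxa) (m + 1)).eq
  have hyb : qb * y * qb = y⁻¹ := by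
    rw [hy]
    have h1 : qb * x ^ (m + 1) * qb⁻¹ = (qb * x * qb⁻¹) ^ (m + 1) := conj_pow.symm
    rw [hqbinv] at h1
    rw [h1, hxb, inv_pow]
  have hxy : x = y * qb * y⁻¹ * qb := by
    have h1 : qb * y⁻¹ * qb = y := by
      have h2 : (qb * y * qb)⁻¹ = qb * y⁻¹ * qb := by
        rw [mul_inv_rev, mul_inv_rev, hqbinv, mul_assoc]
      rw [← h2, hyb, inv_inv]
    calc x = y * y := hyy.symm
      _ = y * (qb * y⁻¹ * qb) := by rw [h1]
      _ = y * qb * y⁻¹ * qb := by group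
  have hyia : y⁻¹ * qa = qa * y⁻¹ := by
    calc y⁻¹ * qa = y⁻¹ * (qa * y) * y⁻¹ := by group
      _ = y⁻¹ * (y * qa) * y⁻¹ := by rw [hya]
      _ = qa * y⁻¹ := by group
  obtain ⟨Yy, hYy⟩ : ∃ Yy : V →ₗ[ZMod 3] V, Yy = ρ y := ⟨_, rfl⟩
  obtain ⟨Yi, hYi⟩ : ∃ Yi : V →ₗ[ZMod 3] V, Yi = ρ y⁻¹ := ⟨_, rfl⟩
  have hYiA : ∀ v, Yi (A v) = A (Yi v) := fun v => by rw [hYi, hA, ← hkey, ← hkey, hyia]
  have hYYi : ∀ v, Yy (Yi v) = v := fun v => by rw [hYy, hYi, ← hkey, mul_inv_cancel, hone]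
  have hXform : ∀ v, X v = Yy (T (Yi (T v))) := fun v => by
    rw [hX, hYy, hYi, hT, ← hkey, ← hkey, ← hkey, ← hxy]
  have hXY : ∀ v, A v = v → ∃ s s' : ZMod 3, X v - v = s • wa + s' • (Yy wa) := by
    intro v hv
    obtain ⟨s, hs⟩ := H1 v hv
    have hz : A (Yi (T v)) = Yi (T v) := by rw [← hYiA, hAT, hv]
    obtain ⟨s', hs'⟩ := H1 _ hz
    refine ⟨s, s', ?_⟩
    rw [hXform, hs', map_add, map_smul, hYYi, hs]
    abel
  -- `X = 1` on the image of `X - 1` on the `+1`-space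
  have hU : ∀ v, A v = v → X (X v - v) = X v - v := by
    obtain ⟨U, hUdef⟩ : ∃ U : Submodule (ZMod 3) V, ∀ u, u ∈ U ↔ ∃ v, A v = v ∧ X v - v = u :=
      ⟨Submodule.map (X - LinearMap.id) (LinearMap.ker (A - LinearMap.id)), fun u => by
        simp [Submodule.mem_map, LinearMap.mem_ker, sub_eq_zero]⟩
    intro v hv
    refine small_fix X p hp hp5 hXp U ?_ wa (Yy wa) ?_ _ ((hUdef _).mpr ⟨v, hv, rfl⟩)
    · intro u hu
      rw [hUdef] at hu ⊢
      obtain ⟨v', hv', rfl⟩ := hu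
      refine ⟨X v', ?_, ?_⟩
      · rw [← hXA, hv']
      · rw [map_sub]
    · intro u hu
      obtain ⟨v', hv', rfl⟩ := (hUdef u).mp hu
      exact hXY v' hv'
  have hplus3 : ∀ v, A v = v → X (X (X v)) = v := by
    intro v hv
    have e := hU v hv
    rw [map_sub] at e
    have e2 : X (X v) = X v - v + X v := sub_eq_iff_eq_add.mp e
    rw [e2, map_add, map_sub, e2, ← sub_eq_zero]
    have e3 : X v - v + X v - X v + (X v - v + X v) - v = (X v + X v + X v) - (v + v + v) := by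
      abel
    rw [e3, h3, h3, sub_zero]
  have hX3 : ∀ v, (X ^ 3) v = X (X (X v)) := fun v => by
    rw [pow_succ, pow_succ, pow_one]; rfl
  have hpow3 : ∀ k : ℕ, ∀ v, A v = v → (X ^ (3 * k)) v = v := by
    intro k
    induction k with
    | zero => intro v _; rw [Nat.mul_zero, pow_zero]; rfl
    | succ k ih =>
      intro v hv
      rw [Nat.mul_succ, pow_add]
      change (X ^ (3 * k)) ((X ^ 3) v) = v
      rw [hX3, hplus3 v hv, ih v hv]
  have hXAv : ∀ v, A v = v → A (X v) = X v := fun v hv => by rw [← hXA, hv]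
  have hplus : ∀ v, A v = v → X v = v := by
    intro v hv
    have hp3 : p % 3 = 1 ∨ p % 3 = 2 := by
      have h0 : p % 3 ≠ 0 := by
        intro h0
        have h1 : 3 ∣ p := Nat.dvd_of_mod_eq_zero h0
        have h2 := (Nat.prime_dvd_prime_iff_eq Nat.prime_three hp).mp h1
        omega
      omega
    have hpv : (X ^ p) v = v := by rw [hXp]; rfl
    rcases hp3 with h1 | h2
    · have hpk : p = 3 * (p / 3) + 1 := by omega
      rw [hpk, pow_succ] at hpv
      change (X ^ (3 * (p / 3))) (X v) = v at hpv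
      rw [hpow3 _ _ (hXAv v hv)] at hpv
      exact hpv
    · have hpk : p = 3 * (p / 3) + 1 + 1 := by omega
      rw [hpk, pow_succ, pow_succ] at hpv
      change (X ^ (3 * (p / 3))) (X (X v)) = v at hpv
      rw [hpow3 _ _ (hXAv _ (hXAv v hv))] at hpv
      have h4 := hplus3 v hv
      rw [hpv] at h4
      exact h4
  -- conclusion
  apply hinj
  rw [map_one]
  apply LinearMap.ext
  intro v
  rw [← hX]
  have hvp : A ((v + A v) + (v + A v)) = (v + A v) + (v + A v) := by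
    rw [map_add, map_add, hA2]; abel
  have hvm : A ((v - A v) + (v - A v)) = -((v - A v) + (v - A v)) := by
    rw [map_add, map_sub, hA2]; abel
  have hv : v = ((v + A v) + (v + A v)) + ((v - A v) + (v - A v)) := by
    have e : ((v + A v) + (v + A v)) + ((v - A v) + (v - A v)) = v + (v + v + v) := by abel
    rw [e, h3, add_zero]
  have hXv : X v = X (((v + A v) + (v + A v)) + ((v - A v) + (v - A v))) := by rw [← hv]
  rw [hXv, map_add, hplus _ hvp, hminus _ hvm, ← hv]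
  rfl

/-- an element `x` of prime order `p ≥ 5` commuting with `qa` is trivial on the `-1`-eigenspace
of `qa` (which is spanned by two vectors). -/
theorem minus_fix {G : Type u} [Group G] {V : Type v} [AddCommGroup V] [Module (ZMod 3) V]
    [Finite V] (ρ : Representation (ZMod 3) G V)
    (p : ℕ) (hp : p.Prime) (hp5 : 5 ≤ p)
    (x qa : G) (hx : x ^ p = 1) (hxa : x * qa = qa * x)
    (P : V → Prop) (hPadd : ∀ c, P c → P (c + c))
    (hPa : ∀ c, P c → ρ qa c = c)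
    (wa wb wc : V) (haa : ρ qa wa = wa) (hab' : ρ qa wb = -wb) (hac : ρ qa wc = -wc)
    (hdec : ∀ v, ∃ (c : V) (a b d : ZMod 3), v = c + a • wa + b • wb + d • wc ∧ P c)
    (hdir : ∀ (c : V) (a b d : ZMod 3), P c → c + a • wa + b • wb + d • wc = 0 →
      c = 0 ∧ a = 0 ∧ b = 0 ∧ d = 0) : ∀ v, ρ qa v = -v → ρ x v = v := by
  classical
  have hkey : ∀ (g h : G) (v : V), ρ (g * h) v = ρ g (ρ h v) := fun g h v => by
    rw [map_mul]; rfl
  have h3 : ∀ v : V, v + v + v = 0 := by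
    intro v
    have h1 : (1 + 1 + 1 : ZMod 3) • v = 0 := by
      rw [show (1 + 1 + 1 : ZMod 3) = 0 from by decide, zero_smul]
    simpa [add_smul] using h1
  have hz3 : ∀ a : ZMod 3, a + a = 0 → a = 0 := by decide
  obtain ⟨X, hX⟩ : ∃ X : V →ₗ[ZMod 3] V, X = ρ x := ⟨_, rfl⟩
  obtain ⟨A, hA⟩ : ∃ A : V →ₗ[ZMod 3] V, A = ρ qa := ⟨_, rfl⟩
  rw [← hA] at haa hab' hac
  rw [← hA, ← hX]
  have hPa' : ∀ c, P c → A c = c := fun c hc => by rw [hA]; exact hPa c hc
  have hXp : X ^ p = 1 := by rw [hX, ← map_pow, hx, map_one]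
  have hXA : ∀ v, X (A v) = A (X v) := fun v => by rw [hX, hA, ← hkey, ← hkey, hxa]
  have H2 : ∀ v, A v = -v → ∃ s t : ZMod 3, v = s • wb + t • wc := by
    intro v hv
    obtain ⟨c, a, b, d, hvd, hc⟩ := hdec v
    have hAc : A c = c := hPa' c hc
    have hAv : A v = c + a • wa + -(b • wb) + -(d • wc) := by
      rw [hvd, map_add, map_add, map_add, map_smul, map_smul, map_smul, hAc, haa, hab', hac,
        smul_neg, smul_neg]
    have e : (c + c) + (a + a) • wa + (0 : ZMod 3) • wb + (0 : ZMod 3) • wc = 0 := by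
      have e1 : (c + c) + (a + a) • wa + (0 : ZMod 3) • wb + (0 : ZMod 3) • wc = v + A v := by
        rw [hAv, hvd]; module
      rw [e1, hv, add_neg_cancel]
    obtain ⟨hcc, haa', -, -⟩ := hdir (c + c) (a + a) 0 0 (hPadd c hc) e
    have hc0 : c = 0 := by
      have h := h3 c
      rw [hcc, zero_add] at h
      exact h
    have ha0 := hz3 a haa'
    refine ⟨b, d, ?_⟩
    rw [hvd, hc0, ha0, zero_smul, zero_add, zero_add]
  obtain ⟨S, hSdef⟩ : ∃ S : Submodule (ZMod 3) V, ∀ v, v ∈ S ↔ A v = -v :=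
    ⟨LinearMap.ker (A + LinearMap.id), fun v => by
      simp [LinearMap.mem_ker, add_eq_zero_iff_eq_neg]⟩
  intro v hv
  refine small_fix X p hp hp5 hXp S ?_ wb wc ?_ v ((hSdef v).mpr hv)
  · intro s hs
    rw [hSdef] at hs ⊢
    rw [← hXA, hs, map_neg]
  · intro s hs
    exact H2 s ((hSdef s).mp hs)

/-- a four-group `{1, qi, qj, qi qj}` centralizes a normal abelian subgroup `N`, provided no
nontrivial element of `N` is centralized by one involution and inverted by another. -/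
theorem cent_of_key {G : Type u} [Group G] (N : Subgroup G) (hNn : N.Normal)
    (hNab : ∀ x ∈ N, ∀ y ∈ N, x * y = y * x)
    (qi qj : G) (hqi : qi * qi = 1) (hqj : qj * qj = 1) (hij : qi * qj = qj * qi)
    (K1 : ∀ u ∈ N, u * qj = qj * u → qi * u * qi = u⁻¹ → u = 1)
    (K2 : ∀ w ∈ N, w * (qi * qj) = (qi * qj) * w → qi * w * qi = w⁻¹ → w = 1) :
    ∀ x ∈ N, qi * x = x * qi := by
  intro x hx
  have hqiinv : qi⁻¹ = qi := inv_eq_of_mul_eq_one_left hqi
  have hqjinv : qj⁻¹ = qj := inv_eq_of_mul_eq_one_left hqj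
  have hci : ∀ n ∈ N, qi * n * qi ∈ N := by
    intro n hn
    have h := hNn.conj_mem n hn qi
    rwa [hqiinv] at h
  have hcj : ∀ n ∈ N, qj * n * qj ∈ N := by
    intro n hn
    have h := hNn.conj_mem n hn qj
    rwa [hqjinv] at h
  obtain ⟨t, ht⟩ : ∃ t, t = x * (qi * x * qi)⁻¹ := ⟨_, rfl⟩
  have htN : t ∈ N := ht ▸ N.mul_mem hx (N.inv_mem (hci x hx))
  have hti : qi * t * qi = t⁻¹ := by
    calc qi * t * qi = qi * x * qi⁻¹ * x⁻¹ := by rw [ht]; group
      _ = qi * x * qi * x⁻¹ := by rw [hqiinv]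
      _ = t⁻¹ := by rw [ht]; group
  obtain ⟨u, hu⟩ : ∃ u, u = t * (qj * t * qj) := ⟨_, rfl⟩
  have huN : u ∈ N := hu ▸ N.mul_mem htN (hcj t htN)
  have hcomm1 : (qj * t * qj) * t = t * (qj * t * qj) := hNab _ (hcj t htN) _ htN
  have huj : u * qj = qj * u := by
    calc u * qj = t * qj * t * (qj * qj) := by rw [hu]; group
      _ = t * qj * t := by rw [hqj, mul_one]
      _ = t * (qj * t * qj) * qj⁻¹ := by group
      _ = (qj * t * qj) * t * qj⁻¹ := by rw [hcomm1]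
      _ = (qj * t * qj) * t * qj := by rw [hqjinv]
      _ = qj * (t * (qj * t * qj)) := by group
      _ = qj * u := by rw [hu]
  have hui : qi * u * qi = u⁻¹ := by
    have e1 : qi * (qj * t * qj) * qi = qj * (qi * t * qi) * qj := by
      calc qi * (qj * t * qj) * qi = (qi * qj) * t * (qj * qi) := by group
        _ = (qj * qi) * t * (qi * qj) := by rw [hij]
        _ = qj * (qi * t * qi) * qj := by group
    have e2 : qi * u * qi = (qi * t * qi) * (qi * (qj * t * qj) * qi) := by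
      calc qi * u * qi = qi * t * 1 * (qj * t * qj) * qi := by rw [hu]; group
        _ = qi * t * (qi * qi) * (qj * t * qj) * qi := by rw [hqi]
        _ = (qi * t * qi) * (qi * (qj * t * qj) * qi) := by group
    have e3 : qj * t⁻¹ * qj = (qj * t * qj)⁻¹ := by
      rw [mul_inv_rev, mul_inv_rev, hqjinv, mul_assoc]
    rw [e2, e1, hti, e3, hu]
    have e6 : (t * (qj * t * qj))⁻¹ = (qj * t * qj)⁻¹ * t⁻¹ := mul_inv_rev _ _
    rw [e6]
    exact hNab _ (N.inv_mem htN) _ (N.inv_mem (hcj t htN))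
  have hu1 := K1 u huN huj hui
  have hjt : qj * t * qj = t⁻¹ := by
    rw [hu] at hu1
    exact eq_inv_of_mul_eq_one_right hu1
  have e4 : qi * t⁻¹ * qi = t := by
    have h : (qi * t * qi)⁻¹ = qi * t⁻¹ * qi := by
      rw [mul_inv_rev, mul_inv_rev, hqiinv, mul_assoc]
    rw [← h, hti, inv_inv]
  have e5 : (qi * qj) * t * (qj * qi) = t := by
    calc (qi * qj) * t * (qj * qi) = qi * (qj * t * qj) * qi := by group
      _ = qi * t⁻¹ * qi := by rw [hjt]
      _ = t := e4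
  have htk : t * (qi * qj) = (qi * qj) * t := by
    calc t * (qi * qj) = ((qi * qj) * t * (qj * qi)) * (qi * qj) := by rw [e5]
      _ = (qi * qj) * t * (qj * (qi * qi) * qj) := by group
      _ = (qi * qj) * t := by rw [hqi, mul_one, hqj, mul_one]
  have ht1 := K2 t htN htk hti
  have hxeq : x = qi * x * qi := by
    rw [ht] at ht1
    exact mul_inv_eq_one.mp ht1
  calc qi * x = qi * x * (qi * qi) := by rw [hqi, mul_one]
    _ = (qi * x * qi) * qi := by group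
    _ = x * qi := by rw [← hxeq]

theorem pkgOdd : PkgOdd.{u, v} := by
  intro G _ _ V _ _ _ ρ R b Q hS hF N p hNR hNn hNab hp hp2 hNp x hxN
  classical
  by_cases hx1 : x = 1
  · rw [hx1, mul_one, one_mul]
  have hp5 : 5 ≤ p := by
    have hord : orderOf x = p := by
      have : Fact p.Prime := ⟨hp⟩
      exact orderOf_eq_prime (hNp x hxN) hx1
    have hdvd : p ∣ Nat.card R := by
      have h1 : orderOf (⟨x, hNR hxN⟩ : R) ∣ Nat.card R := orderOf_dvd_natCard _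
      rwa [Subgroup.orderOf_mk, hord] at h1
    have hp3 : p ≠ 3 := by
      rintro rfl
      exact absurd (Nat.Coprime.eq_one_of_dvd hS.cop.symm hdvd) (by norm_num)
    have hp2' := hp.two_le
    have hp4 : p ≠ 4 := by
      rintro rfl
      exact absurd hp (by norm_num)
    omega
  obtain ⟨q₁, q₂, w₁, w₂, w₃, hq₁, hq₂, hq₁1, hq₂1, hq₁₂, hqc, hQall, hbq₁, hbq₂, hbw₁, hbw₂,
    hbw₃, hw₁0, h11, h12, h13, h21, h22, h23, hdec, hdir⟩ := hF
  have hinj := hS.faith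
  have hkey : ∀ (g h : G) (v : V), ρ (g * h) v = ρ g (ρ h v) := fun g h v => by
    rw [map_mul]; rfl
  have hq₁sq := hS.Q2 q₁ hq₁
  have hq₂sq := hS.Q2 q₂ hq₂
  have hq₃sq : (q₁ * q₂) * (q₁ * q₂) = 1 := hS.Q2 _ (Q.mul_mem hq₁ hq₂)
  -- the predicate `P`
  obtain ⟨P, hP⟩ : ∃ P : V → Prop, ∀ c, P c ↔ (ρ q₁ c = c ∧ ρ q₂ c = c) :=
    ⟨fun c => ρ q₁ c = c ∧ ρ q₂ c = c, fun c => Iff.rfl⟩
  have hP0 : P 0 := by rw [hP]; exact ⟨map_zero _, map_zero _⟩
  have hPadd : ∀ c, P c → P (c + c) := by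
    intro c hc
    rw [hP] at hc ⊢
    rw [map_add, map_add, hc.1, hc.2]
    exact ⟨rfl, rfl⟩
  have hP1 : ∀ c, P c → ρ q₁ c = c := fun c hc => ((hP c).mp hc).1
  have hP2 : ∀ c, P c → ρ q₂ c = c := fun c hc => ((hP c).mp hc).2
  have hP3 : ∀ c, P c → ρ (q₁ * q₂) c = c := fun c hc => by rw [hkey, hP2 c hc, hP1 c hc]
  have h31 : ρ (q₁ * q₂) w₁ = -w₁ := by rw [hkey, h21, map_neg, h11]
  have h32 : ρ (q₁ * q₂) w₂ = -w₂ := by rw [hkey, h22, h12]
  have h33 : ρ (q₁ * q₂) w₃ = w₃ := by rw [hkey, h23, map_neg, h13, neg_neg]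
  -- the decompositions in the three orders
  have hdec123 : ∀ v, ∃ (c : V) (a b d : ZMod 3), v = c + a • w₁ + b • w₂ + d • w₃ ∧ P c := by
    intro v
    obtain ⟨c, a₁, a₂, a₃, hv, hc1, hc2, -⟩ := hdec v
    exact ⟨c, a₁, a₂, a₃, hv, (hP c).mpr ⟨hc1, hc2⟩⟩
  have hdir123 : ∀ (c : V) (a b d : ZMod 3), P c → c + a • w₁ + b • w₂ + d • w₃ = 0 →
      c = 0 ∧ a = 0 ∧ b = 0 ∧ d = 0 := fun c a b d hc h => hdir c a b d (hP1 c hc) (hP2 c hc) h
  have hdec213 : ∀ v, ∃ (c : V) (a b d : ZMod 3), v = c + a • w₂ + b • w₁ + d • w₃ ∧ P c := by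
    intro v
    obtain ⟨c, a₁, a₂, a₃, hv, hc⟩ := hdec123 v
    refine ⟨c, a₂, a₁, a₃, ?_, hc⟩
    rw [hv]; abel
  have hdir213 : ∀ (c : V) (a b d : ZMod 3), P c → c + a • w₂ + b • w₁ + d • w₃ = 0 →
      c = 0 ∧ a = 0 ∧ b = 0 ∧ d = 0 := by
    intro c a b d hc h
    have h' : c + b • w₁ + a • w₂ + d • w₃ = 0 := by rw [← h]; abel
    obtain ⟨e0, e1, e2, e3⟩ := hdir123 c b a d hc h'
    exact ⟨e0, e2, e1, e3⟩
  have hdec312 : ∀ v, ∃ (c : V) (a b d : ZMod 3), v = c + a • w₃ + b • w₁ + d • w₂ ∧ P c := by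
    intro v
    obtain ⟨c, a₁, a₂, a₃, hv, hc⟩ := hdec123 v
    refine ⟨c, a₃, a₁, a₂, ?_, hc⟩
    rw [hv]; abel
  have hdir312 : ∀ (c : V) (a b d : ZMod 3), P c → c + a • w₃ + b • w₁ + d • w₂ = 0 →
      c = 0 ∧ a = 0 ∧ b = 0 ∧ d = 0 := by
    intro c a b d hc h
    have h' : c + b • w₁ + d • w₂ + a • w₃ = 0 := by rw [← h]; abel
    obtain ⟨e0, e1, e2, e3⟩ := hdir123 c b d a hc h'
    exact ⟨e0, e3, e1, e2⟩
  -- the four instances of KEY
  have I1 : ∀ u : G, u ^ p = 1 → u * q₂ = q₂ * u → q₁ * u * q₁ = u⁻¹ → u = 1 :=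
    fun u hu h1 h2 => key ρ hinj p hp hp5 u q₂ q₁ hu hq₂sq hq₁sq hqc.symm h1 h2 P hP0 hPadd
      hP2 hP1 w₂ w₁ w₃ h22 h21 h23 h12 hdec213 hdir213
  have I2 : ∀ u : G, u ^ p = 1 → u * (q₁ * q₂) = (q₁ * q₂) * u → q₁ * u * q₁ = u⁻¹ → u = 1 :=
    fun u hu h1 h2 => key ρ hinj p hp hp5 u (q₁ * q₂) q₁ hu hq₃sq hq₁sq
      (by rw [mul_assoc, ← hqc]) h1 h2 P hP0 hPadd
      hP3 hP1 w₃ w₁ w₂ h33 h31 h32 h13 hdec312 hdir312
  have I3 : ∀ u : G, u ^ p = 1 → u * q₁ = q₁ * u → q₂ * u * q₂ = u⁻¹ → u = 1 :=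
    fun u hu h1 h2 => key ρ hinj p hp hp5 u q₁ q₂ hu hq₁sq hq₂sq hqc h1 h2 P hP0 hPadd
      hP1 hP2 w₁ w₂ w₃ h11 h12 h13 h21 hdec123 hdir123
  have I4 : ∀ u : G, u ^ p = 1 → u * (q₁ * q₂) = (q₁ * q₂) * u → q₂ * u * q₂ = u⁻¹ → u = 1 :=
    fun u hu h1 h2 => key ρ hinj p hp hp5 u (q₁ * q₂) q₂ hu hq₃sq hq₂sq
      (by rw [← mul_assoc, ← hqc]) h1 h2 P hP0 hPadd
      hP3 hP2 w₃ w₁ w₂ h33 h31 h32 h23 hdec312 hdir312
  -- `Q` centralizes `N`
  have hc1 : ∀ y ∈ N, q₁ * y = y * q₁ :=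
    cent_of_key N hNn hNab q₁ q₂ hq₁sq hq₂sq hqc
      (fun u hu h1 h2 => I1 u (hNp u hu) h1 h2) (fun w hw h1 h2 => I2 w (hNp w hw) h1 h2)
  have hc2 : ∀ y ∈ N, q₂ * y = y * q₂ :=
    cent_of_key N hNn hNab q₂ q₁ hq₂sq hq₁sq hqc.symm
      (fun u hu h1 h2 => I3 u (hNp u hu) h1 h2)
      (fun w hw h1 h2 => I4 w (hNp w hw) (by rw [hqc]; exact h1) h2)
  -- the action of `x`
  have hxq1 : x * q₁ = q₁ * x := (hc1 x hxN).symm
  have hxq2 : x * q₂ = q₂ * x := (hc2 x hxN).symm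
  have hm1 := minus_fix ρ p hp hp5 x q₁ (hNp x hxN) hxq1 P hPadd hP1 w₁ w₂ w₃ h11 h12 h13
    hdec123 hdir123
  have hm2 := minus_fix ρ p hp hp5 x q₂ (hNp x hxN) hxq2 P hPadd hP2 w₂ w₁ w₃ h22 h21 h23
    hdec213 hdir213
  have hxw1 : ρ x w₁ = w₁ := hm2 w₁ h21
  have hxw2 : ρ x w₂ = w₂ := hm1 w₂ h12
  have hxw3 : ρ x w₃ = w₃ := hm1 w₃ h13
  -- `b` fixes the common fixed points of `Q`
  have hbC : ∀ c, P c → ρ b c = c := by
    intro c hc
    obtain ⟨c', a₁, a₂, a₃, hv, hc1', hc2', hc3'⟩ := hdec c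
    have hPc' : P (c' - c) := by
      rw [hP, map_sub, map_sub, hc1', hc2', hP1 c hc, hP2 c hc]
      exact ⟨rfl, rfl⟩
    have e : (c' - c) + a₁ • w₁ + a₂ • w₂ + a₃ • w₃ = 0 := by
      have e1 : (c' - c) + a₁ • w₁ + a₂ • w₂ + a₃ • w₃
          = (c' + a₁ • w₁ + a₂ • w₂ + a₃ • w₃) - c := by abel
      rw [e1, ← hv, sub_self]
    obtain ⟨e0, -, -, -⟩ := hdir123 _ _ _ _ hPc' e
    have hcc : c = c' := (sub_eq_zero.mp e0).symm
    rw [hcc]
    exact hc3'
  have hPx : ∀ c, P c → P (ρ x c) := by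
    intro c hc
    rw [hP]
    constructor
    · rw [← hkey, ← hxq1, hkey, hP1 c hc]
    · rw [← hkey, ← hxq2, hkey, hP2 c hc]
  apply hinj
  apply LinearMap.ext
  intro v
  obtain ⟨c, a₁, a₂, a₃, hv, hc⟩ := hdec123 v
  rw [hkey, hkey, hv]
  simp only [map_add, map_smul, hxw1, hxw2, hxw3, hbw₁, hbw₂, hbw₃, hbC c hc,
    hbC _ (hPx c hc)]

example : PkgOdd.{0, 0} := pkgOdd
example : PkgOdd.{3, 2} := pkgOdd

end Cfsg.Agent.Lib.Helper67.S4415
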